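import Cfsg.Agent.H273.PMinimal
import Cfsg.Agent.Lib.GenFitting
import Cfsg.Agent.Lib.MinNormalNonabelian
import Cfsg.Agent.Lib.FrattiniPGroup
import Cfsg.Agent.S0660
set_option linter.all false

/-!
# Isolated `p`-minimal subgroups: `O^p(P) ≤ F_p^*(G)`, and the solvable case (S3045)
-/

set_option autoImplicit false
set_option linter.unusedSectionVars false
set_option linter.style.haveILetI false

open Subgroup
open scoped commutatorElement Pointwise

namespace Cfsg.Agent.H273.IsoSolv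

open Cfsg.Agent.H273.PMinimal

variable {G : Type*} [Group G] [Finite G] {p : ℕ} [hpf : Fact p.Prime]

theorem map_commute_of_commutator_le {N Y O : Subgroup G} [O.Normal] (h : ⁅N, Y⁆ ≤ O) :
    Y.map (QuotientGroup.mk' O) ≤ centralizer ((N.map (QuotientGroup.mk' O) : Subgroup (G ⧸ O)) : Set (G ⧸ O)) := by
  rw [commutator_comm] at h
  rw [Subgroup.map_le_iff_le_comap]
  exact (Lib.Cores.commutator_le_iff_le_comap_centralizer Y N).1 h

/-- **Part 1**: `O^p(P)` is contained in the preimage of `F*(G / O_p(G))`. -/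
theorem res_le_fstar (S : Sylow p G) {P : Subgroup G} (hSP : (S : Subgroup G) ≤ P)
    (hP : Cfsg.IsPMinimal p ↥P) (hiso : Isolated S P) [hn : (Cfsg.pCore p G).Normal] :
    res p P ≤ (Cfsg.generalizedFittingSubgroup (G ⧸ Cfsg.pCore p G)).comap (QuotientGroup.mk' (Cfsg.pCore p G)) := by
  haveI hF : (Cfsg.generalizedFittingSubgroup (G ⧸ Cfsg.pCore p G)).Normal := Lib.GenFitting.genFitting_normal
  set F := (Cfsg.generalizedFittingSubgroup (G ⧸ Cfsg.pCore p G)).comap (QuotientGroup.mk' (Cfsg.pCore p G)) with hFdef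
  haveI : F.Normal := Subgroup.normal_comap _
  rcases normal_le_LL_or_res_le (N := F) (P := P) S with h | h
  · have h1 := map_commute_of_commutator_le (commutator_closure_le S hSP hP hiso h)
    rw [hFdef, Subgroup.map_comap_eq_self_of_surjective (QuotientGroup.mk'_surjective _)] at h1
    have h2 := h1.trans Lib.GenFitting.centralizer_genFitting_le
    rw [Subgroup.map_le_iff_le_comap] at h2
    exact subset_normalClosure.trans h2
  · exact h

/-- `O^p(P)` is generated by `p'`-elements: it is contained in `N` if `Y / N` is a `p`-group. -/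
theorem res_le_of_pow {P N : Subgroup G} (h : ∀ x ∈ P, (orderOf x).Coprime p → x ∈ N) : res p P ≤ N := by
  rw [res, Transfer.Residual.pResidual_def, MonoidHom.map_closure, closure_le]
  rintro _ ⟨g, hg, rfl⟩
  refine h g g.2 ?_
  rw [orderOf_coe]
  exact hg

/-- **The class and prime of `Y / O_p(Y)`** for solvable `Y`. -/
theorem solvable_prime (S : Sylow p G) {P Y : Subgroup G} (hSP : (S : Subgroup G) ≤ P)
    (hP : Cfsg.IsPMinimal p ↥P) (hiso : Isolated S P)
    (hY : Y = normalClosure ((res p P : Subgroup G) : Set G)) (hs : Group.IsSolvable ↥Y) :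
    ∃ t : ℕ, t.Prime ∧ t ≠ p ∧ ∀ y ∈ Y, ∃ k : ℕ, y ^ t ^ k ∈ Cfsg.pCore p G := by
  haveI hn : (Cfsg.pCore p G).Normal := Lib.Cores.pCore_normal p
  haveI hYn : Y.Normal := hY ▸ normalClosure_normal
  have hDY : res p P ≤ Y := hY ▸ subset_normalClosure
  -- `Y ≤` preimage of `F(G/O_p(G))`
  set O := Cfsg.pCore p G with hO
  set π := QuotientGroup.mk' O with hπ
  have hπs : Function.Surjective π := QuotientGroup.mk'_surjective O
  have hY1 : Y.map π ≤ Cfsg.fittingSubgroup (G ⧸ O) := by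
    have hYbn : (Y.map π).Normal := Lib.Cores.map_normal_of_surjective hπs hYn
    have hYbs : Group.IsSolvable ↥(Y.map π) := by
      have h1 : Function.Surjective (π.subgroupMap Y) := π.subgroupMap_surjective Y
      exact Group.isSolvable_of_surjective h1
    -- the layer centralises `Ȳ`
    have hE : Cfsg.layer (G ⧸ O) ≤ centralizer ((Y.map π : Subgroup (G ⧸ O)) : Set (G ⧸ O)) := by
      have h1 := SignalizersComponents.Components.layer_commutator_solvable (G := G ⧸ O) (H := Y.map π)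
        (by rw [normalizer_eq_top_iff.2 hYbn]; exact le_top) hYbs
      rwa [commutator_eq_bot_iff_le_centralizer] at h1
    haveI hFn := Lib.Cores.fittingSubgroup_normal (G := G ⧸ O)
    set N := (Cfsg.fittingSubgroup (G ⧸ O)).comap π with hN
    haveI : N.Normal := Subgroup.normal_comap _
    rcases normal_le_LL_or_res_le (N := N) (P := P) S with h | h
    · have h1 := map_commute_of_commutator_le (commutator_closure_le S hSP hP hiso h)
      rw [← hY, hN, Subgroup.map_comap_eq_self_of_surjective hπs] at h1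
      -- `Ȳ` centralises `F*`
      have h2 : Y.map π ≤ centralizer ((Cfsg.generalizedFittingSubgroup (G ⧸ O) : Subgroup _) : Set (G ⧸ O)) := by
        rw [le_centralizer_iff, Lib.GenFitting.genFitting_def]
        refine sup_le hE ?_
        rw [le_centralizer_iff]; exact h1
      have h3 := h2.trans Lib.GenFitting.centralizer_genFitting_le
      refine Lib.Cores.le_fittingSubgroup hYbn ?_
      letI : CommGroup ↥(Y.map π) :=
        { (inferInstance : Group ↥(Y.map π)) with
          mul_comm := fun a b => Subtype.ext ((mem_centralizer_iff.1 (h2 b.2)) a (h3 a.2)) }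
      exact CommGroup.isNilpotent
    · rw [Subgroup.map_le_iff_le_comap, hY]
      exact normalClosure_le_normal h
  -- choose the prime
  have h4 : ∃ q : Nat.Primes, ¬ (Cfsg.pCore (q : ℕ) (G ⧸ O)).comap π ≤ LL S P := by
    by_contra hcon
    push Not at hcon
    apply res_not_le_LL S hSP hiso
    have hker : π.ker ≤ LL S P := by
      rw [hπ, QuotientGroup.ker_mk']
      exact (Lib.Cores.pCore_le_sylow S).trans (sylow_le_LL S P)
    have h5 : Cfsg.fittingSubgroup (G ⧸ O) ≤ (LL S P).map π := by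
      rw [Lib.Cores.fittingSubgroup_eq_iSup_pCore]
      refine iSup_le fun q => ?_
      have := map_mono (f := π) (hcon q)
      rwa [Subgroup.map_comap_eq_self_of_surjective hπs] at this
    have h6 := hY1.trans h5
    rw [Subgroup.map_le_iff_le_comap, Subgroup.comap_map_eq, sup_eq_left.2 hker] at h6
    exact hDY.trans h6
  obtain ⟨q, hq⟩ := h4
  haveI : Fact (q : ℕ).Prime := ⟨q.2⟩
  haveI : ((Cfsg.pCore (q : ℕ) (G ⧸ O)).comap π).Normal := by
    haveI := Lib.Cores.pCore_normal (G := G ⧸ O) (q : ℕ)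
    exact Subgroup.normal_comap _
  have h5 := (normal_le_LL_or_res_le (N := (Cfsg.pCore (q : ℕ) (G ⧸ O)).comap π) (P := P) S).resolve_left hq
  have h6 : Y ≤ (Cfsg.pCore (q : ℕ) (G ⧸ O)).comap π := by
    rw [hY]; exact normalClosure_le_normal h5
  have h7 : ∀ y ∈ Y, ∃ k : ℕ, y ^ (q : ℕ) ^ k ∈ O := by
    intro y hy
    obtain ⟨k, hk⟩ := Lib.Cores.pCore_isPGroup (G := G ⧸ O) (q : ℕ) ⟨π y, h6 hy⟩
    refine ⟨k, ?_⟩
    have h8 : π (y ^ (q : ℕ) ^ k) = 1 := by
      rw [map_pow]; exact congrArg Subtype.val hk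
    rwa [← MonoidHom.mem_ker, hπ, QuotientGroup.ker_mk'] at h8
  refine ⟨q, q.2, ?_, h7⟩
  intro hqp
  apply res_not_isPGroup S hSP hP
  have h8 : Y ≤ O := by
    intro y hy
    have h9 := h6 hy
    rw [mem_comap] at h9
    rw [hqp] at h9
    have h10 : Cfsg.pCore p (G ⧸ O) = ⊥ := Lib.Cores.pCore_quotient_pCore p
    rw [h10, mem_bot, ← MonoidHom.mem_ker, hπ, QuotientGroup.ker_mk'] at h9
    exact h9
  exact (Lib.Cores.pCore_isPGroup (G := G) p).to_le (hDY.trans h8)

/-- A solvable subgroup `Y ≠ 1` is not perfect. -/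
theorem not_le_commutator {Y : Subgroup G} (hs : Group.IsSolvable ↥Y) (h1 : Y ≠ ⊥) : ¬ Y ≤ ⁅Y, Y⁆ := by
  intro h
  haveI : Group.IsPerfect ↥Y := Subgroup.isPerfect_iff.2 (le_antisymm (commutator_le_self Y) h)
  haveI : Nontrivial ↥Y := (Subgroup.nontrivial_iff_ne_bot Y).2 h1
  exact Group.IsPerfect.not_isSolvable (G := ↥Y) hs

theorem commutator_triple (S : Sylow p G) {P Y : Subgroup G} (hSP : (S : Subgroup G) ≤ P)
    (hP : Cfsg.IsPMinimal p ↥P) (hiso : Isolated S P)
    (hY : Y = normalClosure ((res p P : Subgroup G) : Set G)) (hs : Group.IsSolvable ↥Y) :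
    ⁅Y, Y⁆ ≤ LL S P ∧ ⁅⁅Y, Y⁆, Y⁆ ≤ Cfsg.pCore p G := by
  haveI hYn : Y.Normal := hY ▸ normalClosure_normal
  have hDY : res p P ≤ Y := hY ▸ subset_normalClosure
  have hY1 : Y ≠ ⊥ := fun h => res_ne_bot S hSP hP (le_bot_iff.1 (h ▸ hDY))
  have h1 : ⁅Y, Y⁆ ≤ LL S P := by
    refine (normal_le_LL_or_res_le (N := ⁅Y, Y⁆) (P := P) S).resolve_right fun h => ?_
    apply not_le_commutator hs hY1
    conv_lhs => rw [hY]
    exact normalClosure_le_normal h
  refine ⟨h1, ?_⟩
  have h2 := commutator_closure_le S hSP hP hiso h1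
  rwa [← hY] at h2

theorem class_le_two (S : Sylow p G) {P Y : Subgroup G} (hSP : (S : Subgroup G) ≤ P)
    (hP : Cfsg.IsPMinimal p ↥P) (hiso : Isolated S P)
    (hY : Y = normalClosure ((res p P : Subgroup G) : Set G)) (hs : Group.IsSolvable ↥Y) :
    ∃ _ : (Cfsg.pCore p ↥Y).Normal, ∃ t : ℕ, t.Prime ∧ t ≠ p ∧ IsPGroup t (↥Y ⧸ Cfsg.pCore p ↥Y) ∧
         ∃ _ : Group.IsNilpotent (↥Y ⧸ Cfsg.pCore p ↥Y), Group.nilpotencyClass (↥Y ⧸ Cfsg.pCore p ↥Y) ≤ 2 := by
  haveI hYn : Y.Normal := hY ▸ normalClosure_normal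
  obtain ⟨t, ht, htp, hpow⟩ := solvable_prime S hSP hP hiso hY hs
  haveI : Fact t.Prime := ⟨ht⟩
  refine ⟨Lib.Cores.pCore_normal p, t, ht, htp, ?_⟩
  have hcore := Lib.Cores.map_subtype_pCore p hYn
  have hmem : ∀ y : Y, (y : G) ∈ Cfsg.pCore p G → y ∈ Cfsg.pCore p ↥Y := by
    intro y hy
    have h1 : (y : G) ∈ (Cfsg.pCore p ↥Y).map Y.subtype := by
      rw [hcore]; exact mem_inf.2 ⟨y.2, hy⟩
    obtain ⟨z, hz, hzy⟩ := h1
    have : z = y := Subtype.ext hzy
    rwa [← this]
  have h1 : IsPGroup t (↥Y ⧸ Cfsg.pCore p ↥Y) := by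
    intro x
    obtain ⟨y, rfl⟩ := QuotientGroup.mk_surjective x
    obtain ⟨k, hk⟩ := hpow y y.2
    refine ⟨k, ?_⟩
    rw [← QuotientGroup.mk_pow, QuotientGroup.eq_one_iff]
    exact hmem _ (by simpa using hk)
  refine ⟨h1, h1.isNilpotent, ?_⟩
  haveI := h1.isNilpotent
  rw [← Subgroup.lowerCentralSeries_eq_bot_iff_nilpotencyClass_le, eq_bot_iff]
  show ⁅⁅(⊤ : Subgroup (↥Y ⧸ Cfsg.pCore p ↥Y)), ⊤⁆, ⊤⁆ ≤ ⊥
  rw [le_bot_iff, commutator_eq_bot_iff_le_centralizer, commutator_le]
  intro a _ b _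
  rw [mem_centralizer_iff]
  intro c _
  obtain ⟨a, rfl⟩ := QuotientGroup.mk_surjective a
  obtain ⟨b, rfl⟩ := QuotientGroup.mk_surjective b
  obtain ⟨c, rfl⟩ := QuotientGroup.mk_surjective c
  have h2 : ⁅⁅(a : G), (b : G)⁆, (c : G)⁆ ∈ Cfsg.pCore p G :=
    (commutator_triple S hSP hP hiso hY hs).2
      (commutator_mem_commutator (commutator_mem_commutator a.2 b.2) c.2)
  have h3 : ⁅⁅a, b⁆, c⁆ ∈ Cfsg.pCore p ↥Y := hmem _ h2
  have h4 : ⁅⁅((a : ↥Y) : ↥Y ⧸ Cfsg.pCore p ↥Y), ((b : ↥Y) : ↥Y ⧸ Cfsg.pCore p ↥Y)⁆,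
      ((c : ↥Y) : ↥Y ⧸ Cfsg.pCore p ↥Y)⁆ = 1 := by
    have h5 : (QuotientGroup.mk' (Cfsg.pCore p ↥Y)) ⁅⁅a, b⁆, c⁆ = 1 := (QuotientGroup.eq_one_iff _).2 h3
    rw [map_commutatorElement, map_commutatorElement] at h5
    exact h5
  rw [commutatorElement_eq_one_iff_mul_comm] at h4
  exact h4.symm

/-! ### `O^p(P) = Y` for solvable `Y` -/

/-- An element of order prime to `p` of `N S` (`S` a `p`-group normalising `N`) lies in `N`. -/
theorem mem_of_coprime {N S : Subgroup G} (hS : IsPGroup p S) (hSN : S ≤ normalizer (N : Set G)) {x : G}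
    (hx : x ∈ N ⊔ S) (hc : (orderOf x).Coprime p) : x ∈ N := by
  have h1 := res_le_of_le_sup (P := N ⊔ S) hS hSN le_rfl
  apply h1
  refine ⟨⟨x, hx⟩, Transfer.Residual.mem_pResidual_of_coprime ?_, rfl⟩
  rwa [← orderOf_coe]

/-- If `[Y, O_p(L)] ≤ L`, `Y` normal with `Y L = G`, then `O^p(P) ≤ L`: impossible in the isolated case. -/
theorem commutator_not_le (S : Sylow p G) {P Y : Subgroup G} (hSP : (S : Subgroup G) ≤ P)
    (hP : Cfsg.IsPMinimal p ↥P) (hiso : Isolated S P) [hYn : Y.Normal] (hYL : Y ⊔ LL S P = ⊤) :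
    ¬ ⁅Y, core p (LL S P)⁆ ≤ LL S P := by
  intro h
  apply res_not_le_LL S hSP hiso
  refine (res_le_normalClosure S hSP hP hiso).trans ?_
  rw [normalClosure, closure_le]
  intro x hx
  obtain ⟨q, hq, hconj⟩ := Group.mem_conjugatesOfSet_iff.1 hx
  obtain ⟨g, rfl⟩ := isConj_iff.1 hconj
  have hg : g ∈ Y ⊔ LL S P := hYL ▸ mem_top g
  rw [mem_sup_of_normal_left] at hg
  obtain ⟨y, hy, l, hl, rfl⟩ := hg
  have hq' : l * q * l⁻¹ ∈ core p (LL S P) :=
    (mem_normalizer_iff.1 (le_normalizer_core (p := p) (LL S P) hl) q).1 hq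
  have h1 : ⁅y, l * q * l⁻¹⁆ ∈ LL S P := h (commutator_mem_commutator hy hq')
  have h2 : y * l * q * (y * l)⁻¹ = ⁅y, l * q * l⁻¹⁆ * (l * q * l⁻¹) := by
    rw [commutatorElement_def]; group
  show y * l * q * (y * l)⁻¹ ∈ LL S P
  rw [h2]
  exact (LL S P).mul_mem h1 (core_le _ hq')

theorem normalizer_le_normalizer_centralizer' {X : Type*} [Group X] (H : Subgroup X) :
    normalizer (H : Set X) ≤ normalizer ((centralizer (H : Set X) : Subgroup X) : Set X) := by
  intro g hg
  have key : ∀ g ∈ normalizer (H : Set X), ∀ c ∈ centralizer (H : Set X), g * c * g⁻¹ ∈ centralizer (H : Set X) := by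
    intro g hg c hc
    rw [mem_centralizer_iff] at hc ⊢
    intro h hh
    have h1 : g⁻¹ * h * g ∈ (H : Set X) := by
      have := (mem_normalizer_iff.1 (inv_mem hg) h).1 hh
      rwa [inv_inv] at this
    have h2 := hc _ h1
    calc h * (g * c * g⁻¹) = g * ((g⁻¹ * h * g) * c) * g⁻¹ := by group
      _ = g * (c * (g⁻¹ * h * g)) * g⁻¹ := by rw [h2]
      _ = g * c * g⁻¹ * h := by group
  rw [mem_normalizer_iff]
  intro c
  refine ⟨fun h => key g hg c h, fun h => ?_⟩
  have h1 := key g⁻¹ (inv_mem hg) _ h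
  have h2 : g⁻¹ * (g * c * g⁻¹) * g⁻¹⁻¹ = c := by group
  rwa [h2] at h1

theorem le_normalizer_commutator' {X : Type*} [Group X] {K A B : Subgroup X} (hA : K ≤ normalizer (A : Set X))
    (hB : K ≤ normalizer (B : Set X)) : K ≤ normalizer ((⁅A, B⁆ : Subgroup X) : Set X) := by
  intro g hg
  rw [mem_normalizer_iff_map_conj_eq, Subgroup.map_commutator]
  rw [mem_normalizer_iff_map_conj_eq.1 (hA hg), mem_normalizer_iff_map_conj_eq.1 (hB hg)]

/-- Invariant complements in an elementary abelian normal subgroup. -/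
theorem exists_complement {X : Type*} [Group X] [Finite X] {q : ℕ} [Fact q.Prime] (V D T : Subgroup X)
    [hV : V.Normal] (hVab : ∀ x ∈ V, ∀ y ∈ V, Commute x y) (hVe : ∀ x ∈ V, x ^ q = 1) (hDV : D ≤ V)
    (hT : T ≤ normalizer (D : Set X)) (hcop : (Nat.card T).Coprime (Nat.card V)) :
    ∃ W : Subgroup X, W ≤ V ∧ T ≤ normalizer (W : Set X) ∧ D ⊓ W = ⊥ ∧ D ⊔ W = V := by
  letI : CommGroup ↥V :=
    { (inferInstance : Group ↥V) with
      mul_comm := fun a b => Subtype.ext (hVab a a.2 b b.2) }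
  obtain ⟨K, hK⟩ := Lib.FrattiniPGroup.exists_isCompl_of_elementary (V := ↥V) (p := q)
    (fun a b => mul_comm a b) (fun a => Subtype.ext (hVe a a.2)) (D.subgroupOf V)
  let φ : T →* MulAut V := (MulAut.conjNormal (H := V)).comp T.subtype
  have hφ : ∀ (t : T) (v : V), ((φ t v : V) : X) = t * v * (t : X)⁻¹ := fun t v => MulAut.conjNormal_apply _ _
  obtain ⟨W, hW1, hW2, hW3⟩ := Cfsg.Agent.S0660.exists_invariant_complement φ hcop (D.subgroupOf V) K (by
    intro a u hu
    rw [mem_subgroupOf, hφ]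
    exact (mem_normalizer_iff.1 (hT a.2) (u : X)).1 hu) hK.inf_eq_bot hK.sup_eq_top
  have hDm : (D.subgroupOf V).map V.subtype = D := by
    rw [subgroupOf_map_subtype, inf_eq_left.2 hDV]
  have hWn : ∀ t ∈ T, ∀ w ∈ W.map V.subtype, t * w * t⁻¹ ∈ W.map V.subtype := by
    rintro t ht _ ⟨w, hw, rfl⟩
    exact ⟨φ ⟨t, ht⟩ w, hW1 _ _ hw, hφ _ _⟩
  refine ⟨W.map V.subtype, map_subtype_le W, ?_, ?_, ?_⟩
  · intro t ht
    rw [mem_normalizer_iff]
    intro w
    refine ⟨fun h => hWn t ht w h, fun h => ?_⟩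
    have h1 := hWn t⁻¹ (inv_mem ht) _ h
    have h2 : t⁻¹ * (t * w * t⁻¹) * t⁻¹⁻¹ = w := by group
    rwa [h2] at h1
  · have h1 := congrArg (Subgroup.map V.subtype) hW2
    rw [Subgroup.map_inf _ _ _ V.subtype_injective, hDm, Subgroup.map_bot] at h1
    exact h1
  · have h1 := congrArg (Subgroup.map V.subtype) hW3
    rw [Subgroup.map_sup, hDm, ← MonoidHom.range_eq_map, range_subtype] at h1
    exact h1

theorem res_eq_of_solvable (S : Sylow p G) {P Y : Subgroup G} (hSP : (S : Subgroup G) ≤ P)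
    (hP : Cfsg.IsPMinimal p ↥P) (hiso : Isolated S P)
    (hY : Y = normalClosure ((res p P : Subgroup G) : Set G)) (hs : Group.IsSolvable ↥Y) : res p P = Y := by
  haveI hYn : Y.Normal := hY ▸ normalClosure_normal
  have hDY : res p P ≤ Y := hY ▸ subset_normalClosure
  have hY1 : Y ≠ ⊥ := fun h => res_ne_bot S hSP hP (le_bot_iff.1 (h ▸ hDY))
  have hYL : Y ⊔ LL S P = ⊤ := by rw [hY]; exact closure_sup_LL S hSP
  have hresY : ∀ N : Subgroup G, N.Normal → res p P ≤ N → Y ≤ N := by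
    intro N hN h; rw [hY]; exact normalClosure_le_normal h
  set Q := core p (LL S P) with hQdef
  have hQS : Q ≤ (S : Subgroup G) := core_le_sylow S (sylow_le_LL S P)
  have hQL : Q ≤ LL S P := core_le _
  -- a maximal `G`-normal proper subgroup `N` of `Y`
  obtain ⟨N, ⟨hNn, hNY, hNne⟩, hNmax⟩ :
      ∃ N : Subgroup G, Maximal (fun N : Subgroup G => N.Normal ∧ N ≤ Y ∧ N ≠ Y) N :=
    (Set.toFinite {N : Subgroup G | N.Normal ∧ N ≤ Y ∧ N ≠ Y}).exists_maximal
      ⟨⊥, inferInstance, bot_le, hY1.symm⟩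
  have hDN : ¬ res p P ≤ N := fun h => hNne (le_antisymm hNY (hresY N hNn h))
  have hNL : N ≤ LL S P := (normal_le_LL_or_res_le (N := N) (P := P) S).resolve_right hDN
  have hNmax' : ∀ M : Subgroup G, M.Normal → N ≤ M → M ≤ Y → M = N ∨ M = Y := by
    intro M hM hNM hMY
    by_cases h : M = Y
    · exact Or.inr h
    · exact Or.inl (le_antisymm (hNmax ⟨hM, hMY, h⟩ hNM) hNM)
  have hcomm := commutator_triple S hSP hP hiso hY hs
  have hYYN : ⁅Y, Y⁆ ≤ N := by
    rcases hNmax' (N ⊔ ⁅Y, Y⁆) inferInstance le_sup_left (sup_le hNY (commutator_le_self Y)) with h | h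
    · rw [← h]; exact le_sup_right
    · exfalso
      apply res_not_le_LL S hSP hiso
      exact hDY.trans (h ▸ sup_le hNL hcomm.1)
  -- work in `G / N`
  set π := QuotientGroup.mk' N with hπ
  have hπs : Function.Surjective π := QuotientGroup.mk'_surjective N
  have hπk : π.ker = N := QuotientGroup.ker_mk' N
  set V := Y.map π with hV
  haveI hVn : V.Normal := Lib.Cores.map_normal_of_surjective hπs hYn
  have hVcomap : V.comap π = Y := by
    rw [hV, comap_map_eq, hπk, sup_eq_left.2 hNY]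
  have hVab : ∀ x ∈ V, ∀ y ∈ V, Commute x y := by
    rintro _ ⟨x, hx, rfl⟩ _ ⟨y, hy, rfl⟩
    have h1 : ⁅x, y⁆ ∈ N := hYYN (commutator_mem_commutator hx hy)
    rw [← hπk, MonoidHom.mem_ker, map_commutatorElement, commutatorElement_eq_one_iff_mul_comm] at h1
    exact h1
  have hV1 : V ≠ ⊥ := by
    intro h
    apply hNne
    have h1 := hVcomap
    rw [h, MonoidHom.comap_bot, hπk] at h1
    exact h1
  have hVmin : ∀ M : Subgroup (G ⧸ N), M.Normal → M ≤ V → M = ⊥ ∨ M = V := by
    intro M hM hMV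
    have h1 : (M.comap π).Normal := Subgroup.normal_comap _
    have h2 : N ≤ M.comap π := by
      intro x hx
      have h5 : π x = 1 := by rw [← MonoidHom.mem_ker, hπk]; exact hx
      rw [mem_comap, h5]; exact M.one_mem
    have h3 : M.comap π ≤ Y := by rw [← hVcomap]; exact comap_mono hMV
    have h4 : M = (M.comap π).map π := (map_comap_eq_self_of_surjective hπs M).symm
    rcases hNmax' _ h1 h2 h3 with h | h
    · left
      rw [h4, h, Subgroup.map_eq_bot_iff, hπk]
    · right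
      rw [h4, h]
  obtain ⟨q, hq, hVq, hVe⟩ := Lib.MinNormalNonabelian.abelian_structure V hV1 hVmin hVab
  haveI : Fact q.Prime := ⟨hq⟩
  have hYq : ∀ y ∈ Y, y ^ q ∈ N := by
    intro y hy
    have h1 : π (y ^ q) = 1 := by rw [map_pow]; exact hVe _ (mem_map_of_mem π hy)
    rwa [← MonoidHom.mem_ker, hπk] at h1
  have hYc : ∀ y ∈ Y, (orderOf y).Coprime q → y ∈ N := by
    intro y hy hc
    exact (zpowers_le.2 (hYq y hy)) (mem_zpowers_pow_iff.2 hc.symm)
  have hres : ∀ x ∈ P, (orderOf x).Coprime p → x ∈ res p P := by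
    intro x hx hc
    exact ⟨⟨x, hx⟩, Transfer.Residual.mem_pResidual_of_coprime (by rwa [← orderOf_coe]), rfl⟩
  have hqp : p ≠ q := by
    intro h
    apply hDN
    refine res_le_of_pow fun x hx hc => hYc x (hDY (hres x hx hc)) ?_
    rwa [← h]
  -- the invariant complement
  have hSn : (S : Subgroup G).map π ≤ normalizer (((res p P).map π : Subgroup (G ⧸ N)) : Set (G ⧸ N)) := by
    refine le_trans (map_mono (hSP.trans (le_normalizer_res (p := p) P))) ?_
    exact Subgroup.le_normalizer_map π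
  have hcop : (Nat.card ↥((S : Subgroup G).map π)).Coprime (Nat.card V) :=
    IsPGroup.coprime_card_of_ne p q hqp _ _ (S.isPGroup'.map π) hVq
  obtain ⟨W, hWV, hWn, hDW, hDWV⟩ := exists_complement V ((res p P).map π) ((S : Subgroup G).map π) hVab hVe
    (map_mono hDY) hSn hcop
  have hSR : (S : Subgroup G) ≤ normalizer ((W.comap π : Subgroup G) : Set G) := by
    refine le_trans ?_ (Subgroup.le_normalizer_comap π)
    exact map_le_iff_le_comap.1 hWn
  have hRL : W.comap π ≤ LL S P := by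
    refine (le_LL_or_res_le S hSR).resolve_right fun h => hDN ?_
    have h1 : (res p P).map π ≤ W := map_le_iff_le_comap.2 h
    have h2 : (res p P).map π = ⊥ := by rw [← hDW]; exact (inf_eq_left.2 h1).symm
    rw [Subgroup.map_eq_bot_iff, hπk] at h2
    exact h2
  have hRY : W.comap π ≤ Y := by rw [← hVcomap]; exact comap_mono hWV
  have hRQ : ⁅W.comap π, Q⁆ ≤ N := by
    have h1 : ⁅W.comap π, Q⁆ ≤ Q := le_normalizer_iff_commutator_le_right.1 (hRL.trans (le_normalizer_core _))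
    have h2 : ⁅W.comap π, Q⁆ ≤ Y := (commutator_mono hRY le_rfl).trans (commutator_le_left Y _)
    intro x hx
    refine hYc x (h2 hx) ?_
    obtain ⟨k, hk⟩ := IsPGroup.iff_orderOf.1 (core_isPGroup (p := p) (LL S P)) ⟨x, h1 hx⟩
    have h3 : orderOf x = p ^ k := by rw [← hk, orderOf_mk]
    rw [h3]
    exact Nat.Coprime.pow_left _ ((Nat.coprime_primes hpf.out hq).2 hqp)
  have hWQ : W ≤ centralizer ((Q.map π : Subgroup (G ⧸ N)) : Set (G ⧸ N)) := by
    have h1 := (Lib.Cores.commutator_le_iff_le_comap_centralizer (W.comap π) Q).1 hRQ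
    rw [← map_le_iff_le_comap, map_comap_eq_self_of_surjective hπs] at h1
    exact h1
  have hLV : V ⊔ (LL S P).map π = ⊤ := by
    rw [hV, ← Subgroup.map_sup, hYL, Subgroup.map_top_of_surjective _ hπs]
  have hCn : (V ⊓ centralizer ((Q.map π : Subgroup (G ⧸ N)) : Set (G ⧸ N))).Normal := by
    rw [← normalizer_eq_top_iff, ← top_le_iff, ← hLV]
    refine sup_le ?_ ?_
    · intro v hv
      rw [mem_normalizer_iff]
      intro c
      have h1 : ∀ c ∈ V, v * c * v⁻¹ = c := fun c hc => by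
        rw [(hVab v hv c hc).eq, mul_inv_cancel_right]
      constructor
      · intro hc
        rw [h1 c hc.1]; exact hc
      · intro hc
        have h2 : c ∈ V := by
          have := hVn.conj_mem _ hc.1 v⁻¹
          have h3 : v⁻¹ * (v * c * v⁻¹) * v⁻¹⁻¹ = c := by group
          rwa [h3] at this
        rwa [h1 c h2] at hc
    · refine Lib.MinNormal.le_normalizer_inf (by rw [normalizer_eq_top_iff.2 hVn]; exact le_top) ?_
      refine le_trans ?_ (normalizer_le_normalizer_centralizer' _)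
      exact (map_mono (le_normalizer_core _)).trans (Subgroup.le_normalizer_map π)
  have hW1 : W = ⊥ := by
    rcases hVmin _ hCn inf_le_left with h | h
    · rw [eq_bot_iff, ← h]; exact le_inf hWV hWQ
    · exfalso
      apply commutator_not_le S hSP hP hiso hYL
      refine le_trans ?_ hNL
      rw [Lib.Cores.commutator_le_iff_le_comap_centralizer, ← map_le_iff_le_comap, ← hV]
      rw [← h]; exact inf_le_right
  have hYres : Y = res p P ⊔ N := by
    rw [hW1, sup_bot_eq] at hDWV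
    rw [← hVcomap, ← hDWV, comap_map_eq, hπk]
  -- `Y ≤ [Y, Q]`
  have hKn : (⁅Y, Q⁆).Normal := by
    rw [← normalizer_eq_top_iff, ← top_le_iff, ← hYL]
    refine sup_le (normalizer_commutator_ge_left _ _) ?_
    exact le_normalizer_commutator' (by rw [normalizer_eq_top_iff.2 hYn]; exact le_top) (le_normalizer_core _)
  have hYK : Y ≤ ⁅Y, Q⁆ :=
    hresY _ hKn ((normal_le_LL_or_res_le (N := ⁅Y, Q⁆) (P := P) S).resolve_left
      (commutator_not_le S hSP hP hiso hYL))
  have hOn : (Cfsg.pCore p G).Normal := Lib.Cores.pCore_normal p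
  have hQP : Q ≤ normalizer ((res p P : Subgroup G) : Set G) := (hQS.trans hSP).trans (le_normalizer_res P)
  have hKO : ⁅Y, Q⁆ ≤ res p P ⊔ Cfsg.pCore p G := by
    rw [commutator_le]
    intro y hy x hx
    rw [hYres] at hy
    rw [mem_sup_of_normal_right] at hy
    obtain ⟨d, hd, n, hn, rfl⟩ := hy
    have h1 : ⁅n, x⁆ ∈ Cfsg.pCore p G := commutator_core_le S hNL (commutator_mem_commutator hn hx)
    have h2 : ⁅d, x⁆ ∈ res p P := by
      have h3 : ⁅res p P, Q⁆ ≤ res p P := by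
        rw [commutator_comm]
        exact le_normalizer_iff_commutator_le_right.1 hQP
      exact h3 (commutator_mem_commutator hd hx)
    have h3 : ⁅d * n, x⁆ = (d * ⁅n, x⁆ * d⁻¹) * ⁅d, x⁆ := by
      simp only [commutatorElement_def]; group
    rw [h3]
    exact mul_mem (mem_sup_right (hOn.conj_mem _ h1 d)) (mem_sup_left h2)
  have hYO : Y ≤ res p P ⊔ Cfsg.pCore p G := hYK.trans hKO
  refine le_antisymm hDY ?_
  have hOS : Cfsg.pCore p G ≤ (S : Subgroup G) := Lib.Cores.pCore_le_sylow S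
  have hYp : ∀ y ∈ Y, (orderOf y).Coprime p → y ∈ res p P := fun y hy hc =>
    mem_of_coprime (Lib.Cores.pCore_isPGroup (G := G) p) ((hOS.trans hSP).trans (le_normalizer_res P)) (hYO hy) hc
  conv_lhs => rw [hY]
  rw [normalClosure, closure_le]
  intro x hx
  obtain ⟨d, hd, hconj⟩ := Group.mem_conjugatesOfSet_iff.1 hx
  obtain ⟨g, rfl⟩ := isConj_iff.1 hconj
  have h1 : res p P ≤ (res p P).comap (MulAut.conj g).toMonoidHom := by
    refine res_le_of_pow fun x hx hc => ?_
    rw [mem_comap]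
    refine hYp _ (hYn.conj_mem _ (hDY (hres x hx hc)) g) ?_
    have h2 : orderOf ((MulAut.conj g).toMonoidHom x) = orderOf x :=
      orderOf_injective _ (MulAut.conj g).injective x
    rwa [h2]
  exact h1 hd

end Cfsg.Agent.H273.IsoSolv
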